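import Cfsg.Agent.H749.TwoStab

/-!
# The characters `μ₁`, `μ₂`, `ψ`, `y` of the trace lemma for classical groups (S4933, box MU; helper160)

Setting of `Cfsg.Agent.H749.Two.Cmp` : `W₀` totally singular, `j : X → V` an isometric embedding of `F'` onto a complement
of `W₀` in `W₀ᗮ`, `ρ : stabW F.iso.subtype W₀ →* F'.iso` the homomorphism of `Cmp.exists_rho`, `Lam = W₀ ⊔ Z'.map j`.
-/

set_option autoImplicit false

open scoped ComplexConjugate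
open Cfsg

namespace Cfsg.Agent.H160.HT.Mu

open Cfsg.Agent.OddOrderCharacters.Clifford Cfsg.Agent.Characters MulAction Module Cfsg.Agent.H53.HC
open Cfsg.Agent.H477.HC Cfsg.Agent.H749.Two

universe u v w

/-! ### Surjective homomorphisms -/

section Abs

theorem classInner_surj {H : Type*} {A : Type*} [Group H] [Group A] [Fintype H] [Fintype A] (f : H →* A)
    (hf : Function.Surjective f) (u v : A → ℂ) :
    classInner (fun h => u (f h)) (fun h => v (f h)) = classInner u v := by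
  rw [Core.classInner_def, Core.classInner_def, sum_comp_hom f hf (fun a => u a * conj (v a)), ← mul_assoc]
  congr 1
  have h1 : Nat.card H = Nat.card f.ker * Nat.card A := by
    rw [Subgroup.card_eq_card_quotient_mul_card_subgroup f.ker, mul_comm]
    congr 1
    exact Nat.card_congr (QuotientGroup.quotientKerEquivOfSurjective f hf).toEquiv
  have h2 : (Nat.card f.ker : ℂ) ≠ 0 := Core.card_ne_zero_complex
  have h3 : (Nat.card A : ℂ) ≠ 0 := Core.card_ne_zero_complex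
  rw [h1, Nat.cast_mul]
  field_simp

theorem card_surj {H : Type*} {A : Type*} [Group H] [Group A] (f : H →* A) (hf : Function.Surjective f) :
    Nat.card H = Nat.card f.ker * Nat.card A := by
  rw [Subgroup.card_eq_card_quotient_mul_card_subgroup f.ker, mul_comm]
  congr 1
  exact Nat.card_congr (QuotientGroup.quotientKerEquivOfSurjective f hf).toEquiv

theorem classInner_prod {A : Type*} {B : Type*} [Group A] [Group B] [Fintype A] [Fintype B] (u u' : A → ℂ)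
    (v v' : B → ℂ) :
    classInner (fun p : A × B => u p.1 * v p.2) (fun p => u' p.1 * v' p.2) = classInner u u' * classInner v v' := by
  rw [Core.classInner_def, Core.classInner_def, Core.classInner_def, Nat.card_prod, Nat.cast_mul, mul_inv]
  have e : ∑ p : A × B, u p.1 * v p.2 * conj (u' p.1 * v' p.2) =
      (∑ a : A, u a * conj (u' a)) * ∑ b : B, v b * conj (v' b) := by
    rw [Fintype.sum_mul_sum, Fintype.sum_prod_type]
    refine Finset.sum_congr rfl fun a _ => Finset.sum_congr rfl fun b _ => ?_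
    rw [map_mul]
    ring
  rw [e]
  ring

theorem classInner_joint {H : Type*} {A : Type*} {B : Type*} [Group H] [Group A] [Group B] [Fintype H] [Fintype A]
    [Fintype B] (f : H →* A) (r : H →* B) (hfr : ∀ a b, ∃ h, f h = a ∧ r h = b) (u u' : A → ℂ) (v v' : B → ℂ) :
    classInner (fun h => u (f h) * v (r h)) (fun h => u' (f h) * v' (r h)) = classInner u u' * classInner v v' := by
  rw [← classInner_prod]
  exact classInner_surj (f.prod r) (fun p => by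
    obtain ⟨h, h1, h2⟩ := hfr p.1 p.2
    exact ⟨h, Prod.ext h1 h2⟩) (fun p : A × B => u p.1 * v p.2) (fun p : A × B => u' p.1 * v' p.2)

theorem isIrr_joint {H : Type*} {A : Type*} {B : Type*} [Group H] [Group A] [Group B] [Finite H]
    (f : H →* A) (r : H →* B) (hfr : ∀ a b, ∃ h, f h = a ∧ r h = b) {c : A → ℂ} {χ : B → ℂ}
    (hc : IsIrrCharacter A c) (hχ : IsIrrCharacter B χ) : IsIrrCharacter H (fun h => c (f h) * χ (r h)) := by
  classical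
  have hf : Function.Surjective f := fun a => by
    obtain ⟨h, h1, -⟩ := hfr a 1
    exact ⟨h, h1⟩
  have hr : Function.Surjective r := fun b => by
    obtain ⟨h, -, h1⟩ := hfr 1 b
    exact ⟨h, h1⟩
  have := Finite.of_surjective f hf
  have := Finite.of_surjective r hr
  let _ := Fintype.ofFinite H
  let _ := Fintype.ofFinite A
  let _ := Fintype.ofFinite B
  have e1 : (fun h => c (f h) * χ (r h)) = (c ∘ f) * (χ ∘ r) := rfl
  rw [e1]
  apply Core.isIrr_of_classInner_self (Core.isCharacter_mul (Core.isIrr_isCharacter (Core.isIrr_comp f hf hc))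
    (Core.isIrr_isCharacter (Core.isIrr_comp r hr hχ)))
  rw [← e1, classInner_joint f r hfr, Core.classInner_irr_self hc, Core.classInner_irr_self hχ, mul_one]

end Abs

/-! ### One side -/

section

variable {K : Type u} [Field K] {V : Type v} [AddCommGroup V] [Module K V] {X : Type w} [AddCommGroup X] [Module K X]
variable {F : CForm K V} {F' : CForm K X} {j : X →ₗ[K] V} {W₀ : Submodule K V}

theorem apply_mem {U : Submodule K V} {g : F.iso} (hg : g ∈ stabW F.iso.subtype U) {v : V} (hv : v ∈ U) :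
    (g : V ≃ₗ[K] V) v ∈ U := by
  have h1 : U.map (F.iso.subtype g : V →ₗ[K] V) = U := hg
  have : F.iso.subtype g v ∈ U.map (F.iso.subtype g : V →ₗ[K] V) := ⟨v, hv, rfl⟩
  rwa [h1] at this

theorem finite_iso' (F : CForm K V) [Finite V] : Finite F.iso := by
  have : Finite (V ≃ₗ[K] V) := Finite.of_injective (fun e : V ≃ₗ[K] V => (e : V → V)) DFunLike.coe_injective
  infer_instance

/-- `j X` meets `W₀` in `0` -/
theorem eq_of_sub_mem (h : Cmp F F' j W₀) {x y : X} (hxy : j x - j y ∈ W₀) : x = y := by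
  have h1 : x - y = 0 := by
    refine F'.nondeg _ fun z => ?_
    rw [← h.jB, map_sub]
    exact F.B_eq_zero (h.j1 z _ hxy)
  exact sub_eq_zero.1 h1

theorem inf_map_eq_bot (h : Cmp F F' j W₀) (Z' : Submodule K X) : W₀ ⊓ Z'.map j = ⊥ := by
  rw [Submodule.eq_bot_iff]
  rintro _ ⟨hw, z, -, rfl⟩
  have h1 : z = 0 := eq_of_sub_mem h (x := z) (y := 0) (by rw [map_zero, sub_zero]; exact hw)
  rw [h1, map_zero]

variable {ρ : stabW F.iso.subtype W₀ →* F'.iso}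

/-- **the stabiliser of `Lam = W₀ ⊔ Z'.map j` in that of `W₀`** -/
theorem mem_stab_iff [FiniteDimensional K V] [FiniteDimensional K X] (h : Cmp F F' j W₀)
    (hρ : ∀ (g : stabW F.iso.subtype W₀) x, ((g : F.iso) : V ≃ₗ[K] V) (j x) - j ((ρ g : X ≃ₗ[K] X) x) ∈ W₀)
    (Z' : Submodule K X) (g : stabW F.iso.subtype W₀) :
    (g : F.iso) ∈ stabW F.iso.subtype (W₀ ⊔ Z'.map j) ↔ ρ g ∈ stabW F'.iso.subtype Z' := by
  constructor
  · intro hg
    apply map_eq_of_le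
    intro z hz
    change (ρ g : X ≃ₗ[K] X) z ∈ Z'
    have h1 : ((g : F.iso) : V ≃ₗ[K] V) (j z) ∈ W₀ ⊔ Z'.map j :=
      apply_mem hg (Submodule.mem_sup_right ⟨z, hz, rfl⟩)
    obtain ⟨w, hw, _, ⟨z', hz', rfl⟩, h2⟩ := Submodule.mem_sup.1 h1
    have h3 : j ((ρ g : X ≃ₗ[K] X) z) - j z' ∈ W₀ := by
      have h4 := W₀.sub_mem hw (hρ g z)
      have h5 : w - (((g : F.iso) : V ≃ₗ[K] V) (j z) - j ((ρ g : X ≃ₗ[K] X) z)) =
          j ((ρ g : X ≃ₗ[K] X) z) - j z' := by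
        rw [← h2]; abel
      rwa [h5] at h4
    rw [eq_of_sub_mem h h3]
    exact hz'
  · intro hg
    apply map_eq_of_le
    intro v hv
    obtain ⟨w, hw, _, ⟨z, hz, rfl⟩, rfl⟩ := Submodule.mem_sup.1 hv
    change ((g : F.iso) : V ≃ₗ[K] V) (w + j z) ∈ _
    have h1 : ((g : F.iso) : V ≃ₗ[K] V) (w + j z) = (((g : F.iso) : V ≃ₗ[K] V) w +
        (((g : F.iso) : V ≃ₗ[K] V) (j z) - j ((ρ g : X ≃ₗ[K] X) z))) + j ((ρ g : X ≃ₗ[K] X) z) := by
      rw [map_add]; abel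
    rw [h1]
    exact Submodule.add_mem _ (Submodule.mem_sup_left (W₀.add_mem (apply_mem g.2 hw) (hρ g z)))
      (Submodule.mem_sup_right ⟨_, apply_mem hg hz, rfl⟩)

variable {k : ℕ} {c : GL (Fin k) K → ℂ}

/-- the homomorphism to `GL k K` -/
noncomputable def fW (F : CForm K V) {W₀ : Submodule K V} (b : Basis (Fin k) K W₀) :
    stabW F.iso.subtype W₀ →* GL (Fin k) K := (glE b).toMonoidHom.comp (resHom F.iso.subtype W₀)

theorem flagTerm_fW (hc : IsClassFunction _ c) (b : Basis (Fin k) K W₀) (g : stabW F.iso.subtype W₀) :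
    flagTerm F.iso.subtype c (g : F.iso) W₀ = c (fW F b g) := by
  rw [flagTerm_of F.iso.subtype c g.2, cl_eq hc b]
  rfl

/-- `(fW, ρ)` is onto -/
theorem joint (b : Basis (Fin k) K W₀)
    (hρ3 : ∀ (a : W₀ ≃ₗ[K] W₀) (b : F'.iso), ∃ g : stabW F.iso.subtype W₀, ρ g = b ∧
      ∀ w : W₀, ((g : F.iso) : V ≃ₗ[K] V) w = a w) (A : GL (Fin k) K) (B : F'.iso) :
    ∃ g : stabW F.iso.subtype W₀, fW F b g = A ∧ ρ g = B := by
  obtain ⟨a, rfl⟩ := (glE b).surjective A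
  obtain ⟨g, hg1, hg2⟩ := hρ3 a B
  refine ⟨g, ?_, hg1⟩
  change glE b (res (F.iso.subtype g) W₀ _) = glE b a
  congr 1
  ext w
  exact hg2 w

/-- (A) `ψ = c ⊗ χ` is irreducible -/
theorem isIrr_psi [Finite V] (hc : IsIrrCharacter _ c) (b : Basis (Fin k) K W₀)
    (hρ3 : ∀ (a : W₀ ≃ₗ[K] W₀) (b : F'.iso), ∃ g : stabW F.iso.subtype W₀, ρ g = b ∧
      ∀ w : W₀, ((g : F.iso) : V ≃ₗ[K] V) w = a w) {χ : F'.iso → ℂ} (hχ : IsIrrCharacter _ χ) :
    IsIrrCharacter (stabW F.iso.subtype W₀) (fun g => flagTerm F.iso.subtype c (g : F.iso) W₀ * χ (ρ g)) := by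
  have := finite_iso' F
  have e : (fun g : stabW F.iso.subtype W₀ => flagTerm F.iso.subtype c (g : F.iso) W₀ * χ (ρ g)) =
      fun g => c (fW F b g) * χ (ρ g) := by
    funext g
    rw [flagTerm_fW (Core.isIrr_isClassFunction hc) b]
  rw [e]
  exact isIrr_joint (fW F b) ρ (joint b hρ3) hc hχ

/-- `y = Y ∘ ρ` is irreducible -/
theorem isIrr_comp_rho
    (hρ3 : ∀ (a : W₀ ≃ₗ[K] W₀) (b : F'.iso), ∃ g : stabW F.iso.subtype W₀, ρ g = b ∧
      ∀ w : W₀, ((g : F.iso) : V ≃ₗ[K] V) w = a w) {χ : F'.iso → ℂ} (hχ : IsIrrCharacter _ χ) :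
    IsIrrCharacter (stabW F.iso.subtype W₀) (fun g => χ (ρ g)) :=
  Core.isIrr_comp ρ (fun b => by
    obtain ⟨g, hg, -⟩ := hρ3 1 b
    exact ⟨g, hg⟩) hχ

variable {Z' : Submodule K X} {Lam : Submodule K V}

/-- the homomorphism of `P₁ = stabW W₀ ⊓ stabW Lam` to the stabiliser of `Z'` -/
def rP [FiniteDimensional K V] [FiniteDimensional K X] (h : Cmp F F' j W₀)
    (hρ : ∀ (g : stabW F.iso.subtype W₀) x, ((g : F.iso) : V ≃ₗ[K] V) (j x) - j ((ρ g : X ≃ₗ[K] X) x) ∈ W₀)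
    (hLam : Lam = W₀ ⊔ Z'.map j) :
    (stabW F.iso.subtype W₀ ⊓ stabW F.iso.subtype Lam : Subgroup F.iso) →* stabW F'.iso.subtype Z' :=
  (ρ.comp (Subgroup.inclusion inf_le_left)).codRestrict _ fun g =>
    (mem_stab_iff h hρ Z' (Subgroup.inclusion inf_le_left g)).1 (hLam ▸ g.2.2)

theorem coe_rP [FiniteDimensional K V] [FiniteDimensional K X] (h : Cmp F F' j W₀)
    (hρ : ∀ (g : stabW F.iso.subtype W₀) x, ((g : F.iso) : V ≃ₗ[K] V) (j x) - j ((ρ g : X ≃ₗ[K] X) x) ∈ W₀)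
    (hLam : Lam = W₀ ⊔ Z'.map j) (g : (stabW F.iso.subtype W₀ ⊓ stabW F.iso.subtype Lam : Subgroup F.iso)) :
    (rP h hρ hLam g : F'.iso) = ρ ⟨g, g.2.1⟩ := rfl

/-- `P₁ → GL(W₀) × stabW Z'` is onto -/
theorem jointP [FiniteDimensional K V] [FiniteDimensional K X] (h : Cmp F F' j W₀)
    (hρ : ∀ (g : stabW F.iso.subtype W₀) x, ((g : F.iso) : V ≃ₗ[K] V) (j x) - j ((ρ g : X ≃ₗ[K] X) x) ∈ W₀)
    (b : Basis (Fin k) K W₀)
    (hρ3 : ∀ (a : W₀ ≃ₗ[K] W₀) (b : F'.iso), ∃ g : stabW F.iso.subtype W₀, ρ g = b ∧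
      ∀ w : W₀, ((g : F.iso) : V ≃ₗ[K] V) w = a w) (hLam : Lam = W₀ ⊔ Z'.map j) (A : GL (Fin k) K)
    (B : stabW F'.iso.subtype Z') :
    ∃ g : (stabW F.iso.subtype W₀ ⊓ stabW F.iso.subtype Lam : Subgroup F.iso),
      ((fW F b).comp (Subgroup.inclusion inf_le_left)) g = A ∧ rP h hρ hLam g = B := by
  obtain ⟨g, hg1, hg2⟩ := joint b hρ3 A B
  have h1 : (g : F.iso) ∈ stabW F.iso.subtype Lam := by
    rw [hLam, mem_stab_iff h hρ, hg2]
    exact B.2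
  exact ⟨⟨g, g.2, h1⟩, hg1, Subtype.ext hg2⟩

/-- (A) `μ₁` is irreducible on `P₁` -/
theorem isIrr_mu [FiniteDimensional K V] [FiniteDimensional K X] [Finite V] (h : Cmp F F' j W₀)
    (hρ : ∀ (g : stabW F.iso.subtype W₀) x, ((g : F.iso) : V ≃ₗ[K] V) (j x) - j ((ρ g : X ≃ₗ[K] X) x) ∈ W₀)
    (hc : IsIrrCharacter _ c) (b : Basis (Fin k) K W₀)
    (hρ3 : ∀ (a : W₀ ≃ₗ[K] W₀) (b : F'.iso), ∃ g : stabW F.iso.subtype W₀, ρ g = b ∧
      ∀ w : W₀, ((g : F.iso) : V ≃ₗ[K] V) w = a w) (hLam : Lam = W₀ ⊔ Z'.map j) :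
    IsIrrCharacter (stabW F.iso.subtype W₀ ⊓ stabW F.iso.subtype Lam : Subgroup F.iso)
      (fun g => flagTerm F.iso.subtype c (g : F.iso) W₀) := by
  have e : (fun g : (stabW F.iso.subtype W₀ ⊓ stabW F.iso.subtype Lam : Subgroup F.iso) =>
      flagTerm F.iso.subtype c (g : F.iso) W₀) = c ∘ ((fW F b).comp (Subgroup.inclusion inf_le_left)) := by
    funext g
    exact flagTerm_fW (Core.isIrr_isClassFunction hc) b (Subgroup.inclusion inf_le_left g)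
  rw [e]
  refine Core.isIrr_comp _ (fun A => ?_) hc
  obtain ⟨g, hg, -⟩ := jointP h hρ b hρ3 hLam A 1
  exact ⟨g, hg⟩

/-- (A) the multiplicity of `μ₁` in `ψ` -/
theorem classInner_psi_mu [FiniteDimensional K V] [FiniteDimensional K X] [Finite V] [Finite X] (h : Cmp F F' j W₀)
    (hρ : ∀ (g : stabW F.iso.subtype W₀) x, ((g : F.iso) : V ≃ₗ[K] V) (j x) - j ((ρ g : X ≃ₗ[K] X) x) ∈ W₀)
    (hc : IsIrrCharacter _ c) (b : Basis (Fin k) K W₀)
    (hρ3 : ∀ (a : W₀ ≃ₗ[K] W₀) (b : F'.iso), ∃ g : stabW F.iso.subtype W₀, ρ g = b ∧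
      ∀ w : W₀, ((g : F.iso) : V ≃ₗ[K] V) w = a w) (hLam : Lam = W₀ ⊔ Z'.map j)
    [Fintype (stabW F.iso.subtype W₀ ⊓ stabW F.iso.subtype Lam : Subgroup F.iso)]
    [Fintype (stabW F'.iso.subtype Z')] (χ : F'.iso → ℂ) :
    classInner (fun g : (stabW F.iso.subtype W₀ ⊓ stabW F.iso.subtype Lam : Subgroup F.iso) =>
        flagTerm F.iso.subtype c (g : F.iso) W₀ * χ (ρ ⟨g, g.2.1⟩))
      (fun g => flagTerm F.iso.subtype c (g : F.iso) W₀) =
    classInner (fun s : stabW F'.iso.subtype Z' => χ s) (fun _ => 1) := by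
  classical
  have hsurj : Function.Surjective ((fW F b).comp (Subgroup.inclusion inf_le_left) :
      (stabW F.iso.subtype W₀ ⊓ stabW F.iso.subtype Lam : Subgroup F.iso) →* GL (Fin k) K) := fun A => by
    obtain ⟨g, hg, -⟩ := jointP h hρ b hρ3 hLam A 1
    exact ⟨g, hg⟩
  have := Finite.of_surjective _ hsurj
  let _ := Fintype.ofFinite (GL (Fin k) K)
  have h1 := classInner_joint ((fW F b).comp (Subgroup.inclusion inf_le_left) :
      (stabW F.iso.subtype W₀ ⊓ stabW F.iso.subtype Lam : Subgroup F.iso) →* GL (Fin k) K) (rP h hρ hLam)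
    (jointP h hρ b hρ3 hLam) c c (fun s => χ s) (fun _ => 1)
  rw [Core.classInner_irr_self hc, one_mul] at h1
  rw [← h1]
  have e : ∀ g : (stabW F.iso.subtype W₀ ⊓ stabW F.iso.subtype Lam : Subgroup F.iso),
      flagTerm F.iso.subtype c (g : F.iso) W₀ =
        c (((fW F b).comp (Subgroup.inclusion inf_le_left) :
          (stabW F.iso.subtype W₀ ⊓ stabW F.iso.subtype Lam : Subgroup F.iso) →* GL (Fin k) K) g) := fun g =>
    flagTerm_fW (Core.isIrr_isClassFunction hc) b (Subgroup.inclusion inf_le_left g)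
  congr 1
  · funext g
    rw [← e]
    rfl
  · funext g
    rw [← e, mul_one]

end

/-! ### The other side -/

section

variable {K : Type u} [Field K] {V : Type v} [AddCommGroup V] [Module K V] {X : Type w} [AddCommGroup X] [Module K X]
variable {F : CForm K V} {F₂ : CForm K X} {j₂ : X →ₗ[K] V} {Z₀ : Submodule K V}
variable {ρ₂ : stabW F.iso.subtype Z₀ →* F₂.iso} {W₂ : Submodule K X} {Lam : Submodule K V}
variable {k : ℕ} {c : GL (Fin k) K → ℂ}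

theorem fW_surj [FiniteDimensional K X] (hW₂ : F₂.TS W₂) (b : Basis (Fin k) K W₂) :
    Function.Surjective (fW F₂ b) := by
  intro A
  obtain ⟨a, rfl⟩ := (glE b).surjective A
  obtain ⟨g, hg⟩ := F₂.exists_levi' hW₂ a
  have hgs : g ∈ stabW F₂.iso.subtype W₂ := map_eq_of_le F₂.iso.subtype fun w hw => by
    change (g : X ≃ₗ[K] X) w ∈ W₂
    rw [hg ⟨w, hw⟩]
    exact (a ⟨w, hw⟩).2
  refine ⟨⟨g, hgs⟩, ?_⟩
  change glE b (res (F₂.iso.subtype g) W₂ _) = glE b a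
  congr 1
  ext w
  exact hg w

theorem rP_surj [FiniteDimensional K V] [FiniteDimensional K X] (h₂ : Cmp F F₂ j₂ Z₀)
    (hρ : ∀ (g : stabW F.iso.subtype Z₀) x, ((g : F.iso) : V ≃ₗ[K] V) (j₂ x) - j₂ ((ρ₂ g : X ≃ₗ[K] X) x) ∈ Z₀)
    (hρ3 : ∀ (a : Z₀ ≃ₗ[K] Z₀) (b : F₂.iso), ∃ g : stabW F.iso.subtype Z₀, ρ₂ g = b ∧
      ∀ w : Z₀, ((g : F.iso) : V ≃ₗ[K] V) w = a w) (hLam : Lam = Z₀ ⊔ W₂.map j₂) :
    Function.Surjective (rP h₂ hρ hLam) := by
  intro B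
  obtain ⟨g, hg1, -⟩ := hρ3 1 B
  have h1 : (g : F.iso) ∈ stabW F.iso.subtype Lam := by
    rw [hLam, mem_stab_iff h₂ hρ, hg1]
    exact B.2
  exact ⟨⟨g, g.2, h1⟩, Subtype.ext hg1⟩

/-- (B) `μ₂` is irreducible on `P₂` -/
theorem isIrr_mu₂ [FiniteDimensional K V] [FiniteDimensional K X] (h₂ : Cmp F F₂ j₂ Z₀)
    (hρ : ∀ (g : stabW F.iso.subtype Z₀) x, ((g : F.iso) : V ≃ₗ[K] V) (j₂ x) - j₂ ((ρ₂ g : X ≃ₗ[K] X) x) ∈ Z₀)
    (hρ3 : ∀ (a : Z₀ ≃ₗ[K] Z₀) (b : F₂.iso), ∃ g : stabW F.iso.subtype Z₀, ρ₂ g = b ∧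
      ∀ w : Z₀, ((g : F.iso) : V ≃ₗ[K] V) w = a w) (hW₂ : W₂ ∈ F₂.Om k) (hc : IsIrrCharacter _ c)
    (hLam : Lam = Z₀ ⊔ W₂.map j₂) :
    IsIrrCharacter (stabW F.iso.subtype Z₀ ⊓ stabW F.iso.subtype Lam : Subgroup F.iso)
      (fun g => flagTerm F₂.iso.subtype c (ρ₂ (Subgroup.inclusion inf_le_left g)) W₂) := by
  let b : Basis (Fin k) K W₂ := finBasisOfFinrankEq K W₂ hW₂.2
  have e : (fun g : (stabW F.iso.subtype Z₀ ⊓ stabW F.iso.subtype Lam : Subgroup F.iso) =>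
      flagTerm F₂.iso.subtype c (ρ₂ (Subgroup.inclusion inf_le_left g)) W₂) =
        c ∘ ((fW F₂ b).comp (rP h₂ hρ hLam)) := by
    funext g
    exact flagTerm_fW (Core.isIrr_isClassFunction hc) b (rP h₂ hρ hLam g)
  have hs : Function.Surjective ((fW F₂ b).comp (rP h₂ hρ hLam)) :=
    Function.Surjective.comp (g := fW F₂ b) (fW_surj hW₂.1 b) (rP_surj h₂ hρ hρ3 hLam)
  rw [e]
  exact Core.isIrr_comp _ hs hc

/-- (B) the multiplicity of `μ₂` in `y = Y ∘ ρ₂` -/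
theorem classInner_y_mu₂ [FiniteDimensional K V] [FiniteDimensional K X] (h₂ : Cmp F F₂ j₂ Z₀)
    (hρ : ∀ (g : stabW F.iso.subtype Z₀) x, ((g : F.iso) : V ≃ₗ[K] V) (j₂ x) - j₂ ((ρ₂ g : X ≃ₗ[K] X) x) ∈ Z₀)
    (hρ3 : ∀ (a : Z₀ ≃ₗ[K] Z₀) (b : F₂.iso), ∃ g : stabW F.iso.subtype Z₀, ρ₂ g = b ∧
      ∀ w : Z₀, ((g : F.iso) : V ≃ₗ[K] V) w = a w)
    (hLam : Lam = Z₀ ⊔ W₂.map j₂)
    [Fintype (stabW F.iso.subtype Z₀ ⊓ stabW F.iso.subtype Lam : Subgroup F.iso)]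
    [Fintype (stabW F₂.iso.subtype W₂)] (Y : F₂.iso → ℂ) (c : GL (Fin k) K → ℂ) :
    classInner (fun g : (stabW F.iso.subtype Z₀ ⊓ stabW F.iso.subtype Lam : Subgroup F.iso) =>
        Y (ρ₂ (Subgroup.inclusion inf_le_left g)))
      (fun g => flagTerm F₂.iso.subtype c (ρ₂ (Subgroup.inclusion inf_le_left g)) W₂) =
    classInner (fun s : stabW F₂.iso.subtype W₂ => Y s) (fun s => flagTerm F₂.iso.subtype c (s : F₂.iso) W₂) :=
  classInner_surj (rP h₂ hρ hLam) (rP_surj h₂ hρ hρ3 hLam) (fun s : stabW F₂.iso.subtype W₂ => Y s)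
    (fun s : stabW F₂.iso.subtype W₂ => flagTerm F₂.iso.subtype c (s : F₂.iso) W₂)

/-- (B) the orders -/
theorem card_stab [FiniteDimensional K V] [FiniteDimensional K X] [Finite X] (h₂ : Cmp F F₂ j₂ Z₀)
    (hρ : ∀ (g : stabW F.iso.subtype Z₀) x, ((g : F.iso) : V ≃ₗ[K] V) (j₂ x) - j₂ ((ρ₂ g : X ≃ₗ[K] X) x) ∈ Z₀)
    (hρ3 : ∀ (a : Z₀ ≃ₗ[K] Z₀) (b : F₂.iso), ∃ g : stabW F.iso.subtype Z₀, ρ₂ g = b ∧
      ∀ w : Z₀, ((g : F.iso) : V ≃ₗ[K] V) w = a w) (hW₂ : W₂ ∈ F₂.Om k) (hLam : Lam = Z₀ ⊔ W₂.map j₂) :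
    Nat.card (stabW F.iso.subtype Z₀) =
      Nat.card (stabW F.iso.subtype Z₀ ⊓ stabW F.iso.subtype Lam : Subgroup F.iso) * Nat.card (F₂.Om k) := by
  have e1 := card_surj ρ₂ (fun b => by
    obtain ⟨g, hg, -⟩ := hρ3 1 b
    exact ⟨g, hg⟩)
  have e2 := card_surj (rP h₂ hρ hLam) (rP_surj h₂ hρ hρ3 hLam)
  have e3 : Nat.card ρ₂.ker = Nat.card (rP h₂ hρ hLam).ker := by
    refine Nat.card_congr ⟨fun g => ⟨⟨g.1.1, g.1.2, ?_⟩, ?_⟩, fun g => ⟨Subgroup.inclusion inf_le_left g.1, ?_⟩,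
      fun g => rfl, fun g => rfl⟩
    · change (g.1 : F.iso) ∈ stabW F.iso.subtype Lam
      rw [hLam, mem_stab_iff h₂ hρ, show ρ₂ g.1 = 1 from g.2]
      exact Subgroup.one_mem _
    · exact Subtype.ext (show ρ₂ g.1 = 1 from g.2)
    · exact congrArg Subtype.val (show rP h₂ hρ hLam g.1 = 1 from g.2)
  rw [e1, e2, F₂.card_iso_eq hW₂, e3]
  ring

end

/-! ### Both sides -/

section

variable {K : Type u} [Field K] {V : Type v} [AddCommGroup V] [Module K V] {X : Type w} [AddCommGroup X] [Module K X]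
variable {F : CForm K V} {F₂ : CForm K X} {j₂ : X →ₗ[K] V} {Z₀ W₀ : Submodule K V}
variable {ρ₂ : stabW F.iso.subtype Z₀ →* F₂.iso} {W₂ : Submodule K X}
variable {k : ℕ} {c : GL (Fin k) K → ℂ}

/-- (C) `g j₂ = j₂ ρ₂ g` on `W₂` -/
theorem comm_on [FiniteDimensional K V] [FiniteDimensional K X] (h₂ : Cmp F F₂ j₂ Z₀)
    (hρ : ∀ (g : stabW F.iso.subtype Z₀) x, ((g : F.iso) : V ≃ₗ[K] V) (j₂ x) - j₂ ((ρ₂ g : X ≃ₗ[K] X) x) ∈ Z₀)
    (hW : W₀ = W₂.map j₂) (g : stabW F.iso.subtype Z₀) (hg : (g : F.iso) ∈ stabW F.iso.subtype W₀)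
    (hg' : ρ₂ g ∈ stabW F₂.iso.subtype W₂) (u : X) (hu : u ∈ W₂) :
    ((g : F.iso) : V ≃ₗ[K] V) (j₂ u) = j₂ ((ρ₂ g : X ≃ₗ[K] X) u) := by
  have h1 := hρ g u
  have h2 : ((g : F.iso) : V ≃ₗ[K] V) (j₂ u) - j₂ ((ρ₂ g : X ≃ₗ[K] X) u) ∈ W₂.map j₂ := by
    rw [← hW]
    refine W₀.sub_mem (apply_mem hg ?_) ?_
    · rw [hW]; exact ⟨u, hu, rfl⟩
    · rw [hW]; exact ⟨_, apply_mem hg' hu, rfl⟩
  have h3 : ((g : F.iso) : V ≃ₗ[K] V) (j₂ u) - j₂ ((ρ₂ g : X ≃ₗ[K] X) u) ∈ Z₀ ⊓ W₂.map j₂ := ⟨h1, h2⟩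
  rw [inf_map_eq_bot h₂ W₂] at h3
  exact sub_eq_zero.1 ((Submodule.mem_bot K).1 h3)

/-- (C) `μ₁ = μ₂` on the common stabiliser -/
theorem flagTerm_eq [FiniteDimensional K V] [FiniteDimensional K X] (h₂ : Cmp F F₂ j₂ Z₀)
    (hρ : ∀ (g : stabW F.iso.subtype Z₀) x, ((g : F.iso) : V ≃ₗ[K] V) (j₂ x) - j₂ ((ρ₂ g : X ≃ₗ[K] X) x) ∈ Z₀)
    (hc : IsClassFunction _ c) (hW : W₀ = W₂.map j₂) (g : stabW F.iso.subtype Z₀)
    (hg : (g : F.iso) ∈ stabW F.iso.subtype W₀) (hg' : ρ₂ g ∈ stabW F₂.iso.subtype W₂) :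
    flagTerm F.iso.subtype c (g : F.iso) W₀ = flagTerm F₂.iso.subtype c (ρ₂ g) W₂ := by
  subst hW
  have hinj : Function.Injective j₂ := by
    rw [injective_iff_map_eq_zero]
    intro x hx
    refine F₂.nondeg x fun y => ?_
    rw [← h₂.jB, hx, F.B_zero_left]
  let e : W₂ ≃ₗ[K] W₂.map j₂ := Submodule.equivMapOfInjective j₂ hinj W₂
  rw [flagTerm_of F.iso.subtype c hg, flagTerm_of F₂.iso.subtype c hg', ← cl_conj hc e]
  congr 1
  ext w
  obtain ⟨u, rfl⟩ := e.surjective w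
  rw [LinearEquiv.trans_apply, LinearEquiv.trans_apply, e.symm_apply_apply]
  exact comm_on h₂ hρ rfl g hg hg' u u.2

/-- every automorphism of `W₀` is induced by an isometry trivial on `Z₀` -/
theorem exists_both [FiniteDimensional K V] [FiniteDimensional K X] (h₂ : Cmp F F₂ j₂ Z₀) (hW₂ : F₂.TS W₂)
    (hW : W₀ = W₂.map j₂) (a : W₀ ≃ₗ[K] W₀) :
    ∃ g : F.iso, (∀ w : W₀, (g : V ≃ₗ[K] V) w = a w) ∧ ∀ z ∈ Z₀, (g : V ≃ₗ[K] V) z = z := by
  subst hW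
  obtain ⟨W', hW', h0⟩ := F₂.exists_opp (k := finrank K W₂) ⟨hW₂, rfl⟩
  have h0' := CForm.opp_symm (F := F₂) rfl hW'.2 h0
  have hts : ∀ U : Submodule K X, F₂.TS U → F.TS (U.map j₂) := by
    intro U hU
    refine ⟨?_, ?_⟩
    · rintro _ ⟨w, hw, rfl⟩
      exact (h₂.jQ w).trans (hU.1 w hw)
    · rintro _ ⟨w, hw, rfl⟩ _ ⟨w', hw', rfl⟩
      exact (h₂.jB w w').trans (hU.2 w hw w' hw')
  obtain ⟨g, hg1, -, hg2, -⟩ := F.exists_levi (hts W₂ hW₂) (hts W' hW'.1)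
    (by
      rintro _ ⟨w, hw, rfl⟩ hB
      have : w ∈ W₂ ⊓ F₂.perp W' := ⟨hw, fun w' hw' => by
        rw [← h₂.jB]; exact hB _ ⟨w', hw', rfl⟩⟩
      rw [h0] at this
      rw [(Submodule.mem_bot K).1 this, map_zero])
    (by
      rintro _ ⟨w, hw, rfl⟩ hB
      have : w ∈ W' ⊓ F₂.perp W₂ := ⟨hw, fun w' hw' => by
        rw [← h₂.jB]; exact F.B_eq_zero (hB _ ⟨w', hw', rfl⟩)⟩
      rw [h0'] at this
      rw [(Submodule.mem_bot K).1 this, map_zero]) a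
  refine ⟨g, hg1, fun z hz => hg2 z ?_ ?_⟩
  · rintro _ ⟨w, -, rfl⟩
    exact F.B_eq_zero (h₂.j1 w z hz)
  · rintro _ ⟨w, -, rfl⟩
    exact F.B_eq_zero (h₂.j1 w z hz)

/-- stabilising two subspaces -/
theorem stab_sup [FiniteDimensional K V] {U₁ U₂ : Submodule K V} {g : F.iso} (h1 : g ∈ stabW F.iso.subtype U₁)
    (h2 : g ∈ stabW F.iso.subtype U₂) : g ∈ stabW F.iso.subtype (U₁ ⊔ U₂) := by
  change (U₁ ⊔ U₂).map (F.iso.subtype g : V →ₗ[K] V) = U₁ ⊔ U₂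
  rw [Submodule.map_sup, show U₁.map (F.iso.subtype g : V →ₗ[K] V) = U₁ from h1,
    show U₂.map (F.iso.subtype g : V →ₗ[K] V) = U₂ from h2]

/-- `hD` of the trace lemma -/
theorem inf_le_inf [FiniteDimensional K V] {Lam : Submodule K V} (hLam : Lam = W₀ ⊔ Z₀) :
    stabW F.iso.subtype W₀ ⊓ stabW F.iso.subtype Z₀ ≤
      (stabW F.iso.subtype W₀ ⊓ stabW F.iso.subtype Lam) ⊓ (stabW F.iso.subtype Z₀ ⊓ stabW F.iso.subtype Lam) := by
  intro g hg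
  have h1 : g ∈ stabW F.iso.subtype Lam := by
    rw [hLam]
    exact stab_sup hg.1 hg.2
  exact ⟨⟨hg.1, h1⟩, hg.2, h1⟩

/-- (C) the common restriction `ν` is irreducible -/
theorem isIrr_nu [FiniteDimensional K V] [FiniteDimensional K X] (h₂ : Cmp F F₂ j₂ Z₀) (hW₂ : F₂.TS W₂)
    (hW : W₀ = W₂.map j₂) (hW₀ : W₀ ∈ F.Om k) (hc : IsIrrCharacter _ c) {Lam : Submodule K V} (hLam : Lam = W₀ ⊔ Z₀) :
    IsIrrCharacter ((stabW F.iso.subtype W₀ ⊓ stabW F.iso.subtype Lam) ⊓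
      (stabW F.iso.subtype Z₀ ⊓ stabW F.iso.subtype Lam) : Subgroup F.iso)
      (fun g => flagTerm F.iso.subtype c (g : F.iso) W₀) := by
  let b : Basis (Fin k) K W₀ := finBasisOfFinrankEq K W₀ hW₀.2
  have hle : ((stabW F.iso.subtype W₀ ⊓ stabW F.iso.subtype Lam) ⊓
      (stabW F.iso.subtype Z₀ ⊓ stabW F.iso.subtype Lam) : Subgroup F.iso) ≤ stabW F.iso.subtype W₀ :=
    inf_le_left.trans inf_le_left
  have e : (fun g : ((stabW F.iso.subtype W₀ ⊓ stabW F.iso.subtype Lam) ⊓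
      (stabW F.iso.subtype Z₀ ⊓ stabW F.iso.subtype Lam) : Subgroup F.iso) =>
      flagTerm F.iso.subtype c (g : F.iso) W₀) = c ∘ ((fW F b).comp (Subgroup.inclusion hle)) := by
    funext g
    exact flagTerm_fW (Core.isIrr_isClassFunction hc) b (Subgroup.inclusion hle g)
  rw [e]
  refine Core.isIrr_comp _ (fun A => ?_) hc
  obtain ⟨a, rfl⟩ := (glE b).surjective A
  obtain ⟨g, hg1, hg2⟩ := exists_both h₂ hW₂ hW a
  have h1 : g ∈ stabW F.iso.subtype W₀ := map_eq_of_le F.iso.subtype fun w hw => by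
    change (g : V ≃ₗ[K] V) w ∈ W₀
    rw [hg1 ⟨w, hw⟩]
    exact (a ⟨w, hw⟩).2
  have h2 : g ∈ stabW F.iso.subtype Z₀ := map_eq_of_le F.iso.subtype fun w hw => by
    change (g : V ≃ₗ[K] V) w ∈ Z₀
    rw [hg2 w hw]
    exact hw
  refine ⟨⟨g, inf_le_inf hLam ⟨h1, h2⟩⟩, ?_⟩
  change glE b (res (F.iso.subtype g) W₀ _) = glE b a
  congr 1
  ext w
  exact hg1 w

/-- (C) `hν2` of the trace lemma -/
theorem mu_eq_nu [FiniteDimensional K V] [FiniteDimensional K X] (h₂ : Cmp F F₂ j₂ Z₀)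
    (hρ : ∀ (g : stabW F.iso.subtype Z₀) x, ((g : F.iso) : V ≃ₗ[K] V) (j₂ x) - j₂ ((ρ₂ g : X ≃ₗ[K] X) x) ∈ Z₀)
    (hc : IsClassFunction _ c) (hW : W₀ = W₂.map j₂) {Lam : Submodule K V} (hLam : Lam = Z₀ ⊔ W₀)
    (d : ((stabW F.iso.subtype W₀ ⊓ stabW F.iso.subtype Lam) ⊓
      (stabW F.iso.subtype Z₀ ⊓ stabW F.iso.subtype Lam) : Subgroup F.iso)) :
    flagTerm F₂.iso.subtype c (ρ₂ (Subgroup.inclusion (inf_le_right.trans inf_le_left) d)) W₂ =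
      flagTerm F.iso.subtype c (d : F.iso) W₀ := by
  refine (flagTerm_eq h₂ hρ hc hW _ d.2.1.1 ?_).symm
  rw [← mem_stab_iff h₂ hρ, ← hW, ← hLam]
  exact d.2.2.2

end

end Cfsg.Agent.H160.HT.Mu
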